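import Cfsg.Agent.H315.HT.Mixed
import Cfsg.Agent.H315.CY.StWrap
import Cfsg.Agent.H624.HT.RowOf
import Cfsg.Agent.H700.PrinExt

/-!
# S4933 : rows from a `(B,N)`-pair with Weyl group of order 16 (helper315)

`row_of_pair` : `Row p S` for a finite group `S` with a `(B,N)`-pair of type octagon, all automorphisms type preserving,
`p ∣ q_t + 1` and the degree of the character `Mixed` divisible by `p` exactly once.
-/

set_option autoImplicit false

open Cfsg Subgroup

namespace Cfsg.Agent.H315.HT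

open Cfsg.Agent.LieRecognition.FeitHigmanGroup Cfsg.Agent.LieExceptional.BNPairCore
open Cfsg.Agent.H740.Eight.Hecke Cfsg.Agent.H740.Eight.HeckeDeg
open Cfsg.Agent.H315.CY Cfsg.Agent.H316.HT

/-- the relation of type `s` is preserved by the type preserving automorphisms -/
theorem R_act {K : Type*} [Group K] {P : BNPair K} {A : Subgroup (MulAut K)} (H : TP P A) {s : K} (hs : s ∈ P.S)
    (a : A) (x y : K ⧸ P.B) : R P s (H.act a x) (H.act a y) ↔ R P s x y := by
  induction x using QuotientGroup.induction_on with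
  | _ g =>
  induction y using QuotientGroup.induction_on with
  | _ k =>
  rw [H.act_mk (H.sel_Sel a), H.act_mk (H.sel_Sel a)]
  have key : ∀ z : K, z ∈ C P s ↔ z ∈ P.parabolic {s} ∧ z ∉ P.B := by
    intro z
    constructor
    · intro hz
      refine ⟨mem_of_mem_C' (P := P) le_sup_left hz
        ((le_sup_right : Subgroup.closure {s} ≤ _) (Subgroup.subset_closure rfl)), fun hB => ?_⟩
      have h4 := C_eq_of_mem hz
      have h5 := C_eq_of_mem ((mem_C_one (P := P)).2 hB)
      have h6 := self_mem_C (P := P) s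
      rw [← h4, h5, mem_C_one] at h6
      exact not_mem_B hs h6
    · rintro ⟨h1, h2⟩
      rcases Cfsg.Agent.H978.BR.mem_par hs h1 with h3 | h3
      · exact (h2 h3).elim
      · exact h3
  show R P s (((a : MulAut K) g * H.sel a : K) : K ⧸ P.B) (((a : MulAut K) k * H.sel a : K) : K ⧸ P.B) ↔
    R P s (g : K ⧸ P.B) (k : K ⧸ P.B)
  rw [R_mk_iff, R_mk_iff, key, key]
  have e : ((a : MulAut K) g * H.sel a)⁻¹ * ((a : MulAut K) k * H.sel a) =
      (H.sel a)⁻¹ * (a : MulAut K) (g⁻¹ * k) * H.sel a := by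
    rw [map_mul, map_inv]; group
  have hBM : P.B ≤ P.parabolic {s} := le_sup_left
  rw [e, H.sel_spec a hBM, H.sel_spec a le_rfl]

/-- **The row** -/
theorem row_of_pair {S : Type} [Group S] [Finite S] {P : BNPair S} {p : ℕ} [hp : Fact p.Prime] (hTP : TPall P)
    {s t : S} (hS : P.S = {s, t}) (hst : s ≠ t) (h16 : ((P.B ⊓ P.N).subgroupOf P.N).index = 16)
    (hN : Nat.card (S ⧸ P.B) = (1 + q P s) * (1 + q P t) * (1 + q P s * q P t) * (1 + q P s ^ 2 * q P t ^ 2))
    (hpt : p ∣ 1 + q P t) {d : ℕ} (hd : (kap (q P s) (q P t))⁻¹ * Nat.card (S ⧸ P.B) = d)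
    (hv : d.factorization p = 1) : Row p S := by
  classical
  intro A _ _ N _ ⟨e⟩ _ M hM P' a ha _
  have := Fintype.ofFinite (S ⧸ P.B)
  have := Fintype.ofFinite S
  have hs : s ∈ P.S := by rw [hS]; exact Or.inl rfl
  have ht : t ∈ P.S := by rw [hS]; exact Or.inr rfl
  have H0 : TP P (⊤ : Subgroup (MulAut S)) := fun a _ => hTP a
  let Φ : A →* MulAut S := (MulAut.congr e).toMonoidHom.comp MulAut.conjNormal
  let Φ' : A →* (⊤ : Subgroup (MulAut S)) := Subgroup.topEquiv.symm.toMonoidHom.comp Φ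
  let i0 : MulAction (⊤ : Subgroup (MulAut S)) (S ⧸ P.B) := H0.mact
  let iA : MulAction A (S ⧸ P.B) := MulAction.compHom _ Φ'
  have hact : ∀ (g : A) (x : S ⧸ P.B), g • x = H0.act (Φ' g) x := fun _ _ => rfl
  have hn : ∀ (n : N) (x : S ⧸ P.B), (n : A) • x = (e n) • x := by
    intro n x
    rw [hact]
    have h1 : Φ' (n : A) = ⟨MulAut.conj (e n), Subgroup.mem_top _⟩ := by
      apply Subtype.ext
      show Φ (n : A) = MulAut.conj (e n)
      ext y
      show e (MulAut.conjNormal (n : A) (e.symm y)) = e n * y * (e n)⁻¹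
      have h2 : MulAut.conjNormal (n : A) (e.symm y) = n * e.symm y * n⁻¹ := by
        apply Subtype.ext
        simp
      rw [h2, map_mul, map_mul, map_inv, e.apply_symm_apply]
    rw [h1]
    exact H0.act_conj (fun s => Subgroup.mem_top _) (e n) x
  have hInv : ∀ r ∈ P.S, Inv A (T P r) := by
    intro r hr g x y
    rw [T_apply, T_apply, hact, hact]
    simp only [R_act H0 hr]
  have hInvH : ∀ (L : Subgroup A) (r : S), r ∈ P.S → Inv L (T P r) := fun L r hr g x y => hInv r hr (g : A) x y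
  -- the characters
  have hψS : IsIrrCharacter S (fun g => ∑ x, eC P s t x (g • x)) :=
    psiA hS hst h16 (inv_T s) (inv_T t) fun g => ⟨g, fun _ => rfl⟩
  set L : Subgroup A := N ⊔ P' with hL
  have hξ : IsIrrCharacter L (fun g => ∑ x, eC P s t x (g • x)) := by
    refine psiA hS hst h16 (hInvH L s hs) (hInvH L t ht) fun g => ?_
    refine ⟨⟨e.symm g, hL ▸ Subgroup.mem_sup_left (e.symm g).2⟩, fun x => ?_⟩
    have h1 := hn (e.symm g) x
    rw [e.apply_symm_apply] at h1
    exact h1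
  have hψ0 : (⟨_, hψS⟩ : IrrCharacter S) ∈ principalBlock M S :=
    psi_mem hM hS hst h16 hN hp.out hpt _ fun g => rfl
  have hdegS : charDegree (fun g : S => ∑ x, eC P s t x (g • x)) = d := by
    have h1 := psi_one hS hst h16 (A := S)
    rw [hd] at h1
    show ⌊(∑ x, eC P s t x ((1 : S) • x)).re⌋₊ = d
    rw [h1]
    simp
  have hdegξ : charDegree (fun g : L => ∑ x, eC P s t x (g • x)) = d := by
    have h1 := psi_one hS hst h16 (A := L)
    rw [hd] at h1
    show ⌊(∑ x, eC P s t x ((1 : L) • x)).re⌋₊ = d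
    rw [h1]
    simp
  have hd0 : d ≠ 0 := by
    rintro rfl
    simp at hv
  have hpd : p ∣ d := by
    have h1 : p ^ 1 ∣ d := (hp.out.pow_dvd_iff_le_factorization hd0).2 hv.ge
    rwa [pow_one] at h1
  refine H624.HT.goodOn_of hM N P' (H700.PrinExt.mapIrr e ⟨_, hψS⟩) (H700.PrinExt.mapIrr_mem e hψ0) L hL ⟨_, hξ⟩
    ?_ ?_ (Or.inl ?_) ?_
  · intro _
    have h3 : (fun n : N => (fun g : L => ∑ x, eC P s t x (g • x)) ⟨n, hL ▸ Subgroup.mem_sup_left n.2⟩) =
        (H700.PrinExt.mapIrr e ⟨_, hψS⟩ : N → ℂ) := by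
      funext n
      show ∑ x, eC P s t x ((n : A) • x) = ∑ x, eC P s t x (e n • x)
      simp only [hn]
    show classInner (fun n : N => (fun g : L => ∑ x, eC P s t x (g • x)) ⟨n, hL ▸ Subgroup.mem_sup_left n.2⟩)
      (H700.PrinExt.mapIrr e ⟨_, hψS⟩ : N → ℂ) ≠ 0
    rw [h3, Characters.Core.classInner_irr_self (H700.PrinExt.mapIrr e ⟨_, hψS⟩).2]
    exact one_ne_zero
  · show (charDegree (fun g : L => ∑ x, eC P s t x (g • x))).factorization p ≤ a
    rw [hdegξ, hv]
    exact ha
  · rw [H700.PrinExt.charDegree_mapIrr]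
    show p ∣ charDegree (fun g : S => ∑ x, eC P s t x (g • x))
    rw [hdegS]
    exact hpd
  · intro h
    have h1 : charDegree (H700.PrinExt.mapIrr e ⟨_, hψS⟩ : N → ℂ) = d := by
      rw [H700.PrinExt.charDegree_mapIrr]
      exact hdegS
    rw [h] at h1
    have h2 : charDegree (fun _ : N => (1 : ℂ)) = 1 := by simp [charDegree]
    rw [h2] at h1
    rw [← h1] at hpd
    exact hp.out.one_lt.ne' (Nat.dvd_one.1 hpd)

end Cfsg.Agent.H315.HT
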